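import Mathlib
import Cfsg.Agent.Lib.Helper51.Zass.Defs

/-!
# Project ZASS (S0690), package [STR120]: the cut into [STR120-M] and [STR120-T]

`PkgStr120M` is the statement of [STR120] for a group `M` that is itself the plane
(`f : M ->> A₅` with kernel of order 2, at most one involution); [STR120-T] transfers it to a
plane `Pl ≤ G`.
-/

set_option autoImplicit false

namespace Cfsg.Agent.Lib.Helper79.Zass

universe u

/-- [STR120-M] the `T(5)`-structure of a plane `M` (statement inside the group `M`). -/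
def PkgStr120M : Prop :=
  ∀ (M : Type u) [Group M] [Finite M],
    (∀ s t : M, orderOf s = 2 → orderOf t = 2 → s = t) →
    ∀ f : M →* alternatingGroup (Fin 5), Function.Surjective f → Nat.card f.ker = 2 →
      (∀ P : Subgroup M, Nat.card P = 3 →
        Set.ncard {Q : Subgroup M | Nat.card Q = 3 ∧ Nat.card ↥(P ⊔ Q) = 24} = 6) ∧
      (∀ P Q : Subgroup M, Nat.card P = 3 → Nat.card Q = 3 → P ⊔ Q = ⊤ →
        Set.ncard {R : Subgroup M | Nat.card R = 3 ∧ Nat.card ↥(P ⊔ R) = 24 ∧
          Nat.card ↥(Q ⊔ R) = 24} = 4) ∧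
      (∀ P Q : Subgroup M, Nat.card P = 3 → Nat.card Q = 3 → Nat.card ↥(P ⊔ Q) = 24 →
        Set.ncard {R : Subgroup M | Nat.card R = 3 ∧ ¬ R ≤ P ⊔ Q ∧
          Nat.card ↥(P ⊔ R) = 24 ∧ Nat.card ↥(Q ⊔ R) = 24} = 1)

/-- [STR120-T] the transfer from the group `↥Pl` to subgroups of `G` contained in `Pl`. -/
def PkgStr120T : Prop := PkgStr120M.{u} → Cfsg.Agent.Lib.Helper51.Zass.PkgStr120.{u}

end Cfsg.Agent.Lib.Helper79.Zass
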