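import Mathlib
import Cfsg.Agent.Lib.Helper79.Zass.Str120Defs

/-!
# Project ZASS (S0690), package [STR120-M]

The `T(5)`-structure of a plane `M` (a central extension of `A₅` by a group of order 2 with at
most one involution): the subgroups of order 3 of `M` correspond to the 3-subsets of `Fin 5`, and
two of them generate a subgroup of order 24 iff the 3-subsets meet in 2 points.
-/

set_option autoImplicit false
set_option linter.unusedSectionVars false

namespace Cfsg.Agent.Lib.Helper79.Zass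

open Equiv

universe u

/-! ### facts about `Perm (Fin 5)` and the 3-subsets of `Fin 5` -/

set_option maxRecDepth 100000 in
theorem s120_f1 : ∀ c : Perm (Fin 5), c ^ 3 = 1 → c ≠ 1 → c.support.card = 3 := by
  decide +kernel

set_option maxRecDepth 100000 in
theorem s120_f2 : ∀ c c' : Perm (Fin 5), c ^ 3 = 1 → c ≠ 1 → c' ^ 3 = 1 → c' ≠ 1 →
    c.support = c'.support → c' = c ∨ c' = c⁻¹ := by
  decide +kernel

set_option maxRecDepth 100000 in
theorem s120_f3 : ∀ j : Fin 5, (Finset.univ.filter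
    (fun σ : alternatingGroup (Fin 5) => (σ : Perm (Fin 5)) j = j)).card = 12 := by
  decide +kernel

set_option maxRecDepth 100000 in
theorem s120_f4 : ∀ c c' : Perm (Fin 5), c ^ 3 = 1 → c ≠ 1 → c' ^ 3 = 1 → c' ≠ 1 →
    (c.support ∩ c'.support).card = 1 → (c * c') ^ 5 = 1 ∧ c * c' ≠ 1 := by
  decide +kernel

set_option maxRecDepth 100000 in
theorem s120_f5 : ∀ T : Finset (Fin 5), T.card = 3 →
    ∃ c : alternatingGroup (Fin 5), c ^ 3 = 1 ∧ c ≠ 1 ∧ (c : Perm (Fin 5)).support = T := by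
  decide +kernel

/-- the 3-subsets of `Fin 5`. -/
def s120T5 : Finset (Finset (Fin 5)) := Finset.powersetCard 3 Finset.univ

theorem s120_mem_T5 (T : Finset (Fin 5)) : T ∈ s120T5 ↔ T.card = 3 := by
  unfold s120T5
  rw [Finset.mem_powersetCard]
  exact ⟨fun h => h.2, fun h => ⟨Finset.subset_univ _, h⟩⟩

theorem s120_cb : ∀ T ∈ s120T5, (s120T5.filter (fun T' => (T ∩ T').card = 2)).card = 6 := by
  decide +kernel

theorem s120_cc : ∀ T ∈ s120T5, ∀ T' ∈ s120T5, (T ∩ T').card = 1 →
    (s120T5.filter (fun T'' => (T ∩ T'').card = 2 ∧ (T' ∩ T'').card = 2)).card = 4 := by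
  decide +kernel

theorem s120_cd : ∀ T ∈ s120T5, ∀ T' ∈ s120T5, (T ∩ T').card = 2 →
    (s120T5.filter (fun T'' => ¬ T'' ⊆ T ∪ T' ∧ (T ∩ T'').card = 2 ∧
      (T' ∩ T'').card = 2)).card = 1 := by
  decide +kernel

theorem s120_ce : ∀ T ∈ s120T5, ∀ T' ∈ s120T5,
    (T ∩ T').card = 1 ∨ (T ∩ T').card = 2 ∨ T = T' := by
  decide +kernel

theorem s120_cf : ∀ T ∈ s120T5, ∀ T' ∈ s120T5, (T ∩ T').card = 2 → ∃ j, j ∉ T ∧ j ∉ T' := by
  decide +kernel

theorem s120_cg : ∀ T ∈ s120T5, ∀ T' ∈ s120T5, ∀ T'' ∈ s120T5, (T ∩ T').card = 2 →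
    ∀ j, j ∉ T → j ∉ T' → (T'' ⊆ T ∪ T' ↔ j ∉ T'') := by
  decide +kernel

/-! ### general facts about subgroups of order 3 -/

/-- a subgroup of order 3 is generated by an element of order 3. -/
theorem s120_gen {K : Type*} [Group K] [Finite K] (P : Subgroup K) (hP : Nat.card P = 3) :
    ∃ a : K, orderOf a = 3 ∧ P = Subgroup.zpowers a := by
  have : Fact (Nat.Prime 3) := ⟨Nat.prime_three⟩
  obtain ⟨x, hx⟩ := exists_prime_orderOf_dvd_card' (G := P) 3 (by rw [hP])
  refine ⟨(x : K), by rw [← hx, Subgroup.orderOf_coe], ?_⟩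
  symm
  apply Subgroup.eq_of_le_of_card_ge
  · rw [Subgroup.zpowers_le]
    exact x.2
  · rw [Nat.card_zpowers, Subgroup.orderOf_coe, hx, hP]

/-- two distinct subgroups of order 3 inside `H` force `9 ≤ |H|`. -/
theorem s120_nine {K : Type*} [Group K] [Finite K] (P Q H : Subgroup K) (hP : Nat.card P = 3)
    (hQ : Nat.card Q = 3) (hne : P ≠ Q) (hPH : P ≤ H) (hQH : Q ≤ H) : 9 ≤ Nat.card H := by
  have hdisj : Disjoint P Q := by
    rw [disjoint_iff]
    have h1 : Nat.card (P ⊓ Q : Subgroup K) ∣ 3 := hP ▸ Subgroup.card_dvd_of_le inf_le_left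
    rcases (Nat.dvd_prime Nat.prime_three).1 h1 with h | h
    · exact Subgroup.card_eq_one.1 h
    · exfalso
      have h2 : P ⊓ Q = P := Subgroup.eq_of_le_of_card_ge inf_le_left (by rw [h, hP])
      have h3 : P ≤ Q := by
        rw [← h2]
        exact inf_le_right
      exact hne (Subgroup.eq_of_le_of_card_ge h3 (by rw [hP, hQ]))
  have hinj := Subgroup.mul_injective_of_disjoint hdisj
  have h9 : Nat.card (P × Q) = 9 := by rw [Nat.card_prod, hP, hQ]
  rw [← h9]
  refine Nat.card_le_card_of_injective (fun g : P × Q =>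
    (⟨(g.1 : K) * (g.2 : K), H.mul_mem (hPH g.1.2) (hQH g.2.2)⟩ : H)) ?_
  intro g g' h
  apply hinj
  exact congrArg Subtype.val h

/-! ### the plane `M` -/

section plane

variable {M : Type u} [Group M] [Finite M] (f : M →* alternatingGroup (Fin 5))

/-- the kernel of order 2 is generated by the central involution. -/
theorem s120_ker (hk : Nat.card f.ker = 2)
    (hinv : ∀ s t : M, orderOf s = 2 → orderOf t = 2 → s = t) :
    ∃ z : M, orderOf z = 2 ∧ f z = 1 ∧ (∀ x, f x = 1 → x = 1 ∨ x = z) ∧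
      ∀ g : M, g * z = z * g := by
  obtain ⟨z0, hz0, huniq⟩ := (Nat.card_eq_two_iff' (1 : f.ker)).1 hk
  have hz1 : (z0 : M) ≠ 1 := fun h => hz0 (Subtype.ext h)
  have hfz : f (z0 : M) = 1 := z0.2
  have hker : ∀ x, f x = 1 → x = 1 ∨ x = z0 := by
    intro x hx
    by_cases h1 : x = 1
    · exact Or.inl h1
    · right
      have h2 := huniq ⟨x, hx⟩ (fun h => h1 (congrArg Subtype.val h))
      exact congrArg Subtype.val h2
  have hz2 : (z0 : M) * z0 = 1 := by
    rcases hker ((z0 : M) * z0) (by rw [map_mul, hfz, one_mul]) with h | h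
    · exact h
    · exfalso
      exact hz1 (mul_eq_left.1 h)
  have hord : orderOf (z0 : M) = 2 :=
    orderOf_eq_prime (by rw [pow_two]; exact hz2) hz1
  refine ⟨z0, hord, hfz, hker, ?_⟩
  intro g
  have h1 : orderOf (g * z0 * g⁻¹) = 2 := by
    apply orderOf_eq_prime
    · rw [conj_pow, pow_two, hz2, mul_one, mul_inv_cancel]
    · intro h
      apply hz1
      have h2 := congrArg (fun t => g⁻¹ * t * g) h
      simpa [mul_assoc] using h2
  have h2 := hinv _ _ h1 hord
  calc g * z0 = g * z0 * g⁻¹ * g := by group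
    _ = z0 * g := by rw [h2]

open Classical in
/-- the set of points of `Fin 5` moved by `f(P)`. -/
noncomputable def s120tau (P : Subgroup M) : Finset (Fin 5) :=
  Finset.univ.filter
    (fun j => ∃ x ∈ P, ((f x : alternatingGroup (Fin 5)) : Perm (Fin 5)) j ≠ j)

theorem s120_tau_zpowers (a : M) :
    s120tau f (Subgroup.zpowers a)
      = ((f a : alternatingGroup (Fin 5)) : Perm (Fin 5)).support := by
  classical
  ext j
  unfold s120tau
  rw [Finset.mem_filter, Perm.mem_support]
  constructor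
  · rintro ⟨-, x, hx, hxj⟩ h
    obtain ⟨k, rfl⟩ := Subgroup.mem_zpowers_iff.1 hx
    apply hxj
    rw [map_zpow, Subgroup.coe_zpow]
    exact Perm.zpow_apply_eq_self_of_apply_eq_self h k
  · intro h
    exact ⟨Finset.mem_univ _, a, Subgroup.mem_zpowers a, h⟩

variable (z : M) (hz : orderOf z = 2) (hfz : f z = 1) (hker : ∀ x, f x = 1 → x = 1 ∨ x = z)
  (hzc : ∀ g : M, g * z = z * g)

include hz hker in
/-- the image of an element of order 3. -/
theorem s120_img3 (a : M) (ha : orderOf a = 3) :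
    ((f a : alternatingGroup (Fin 5)) : Perm (Fin 5)) ^ 3 = 1 ∧
      ((f a : alternatingGroup (Fin 5)) : Perm (Fin 5)) ≠ 1 := by
  constructor
  · rw [← Subgroup.coe_pow, ← map_pow, ← ha, pow_orderOf_eq_one, map_one, Subgroup.coe_one]
  · intro h
    have h1 : f a = 1 := Subtype.ext h
    rcases hker a h1 with h2 | h2
    · rw [h2, orderOf_one] at ha
      omega
    · rw [h2, hz] at ha
      omega

include hz hker hzc in
/-- `f` is injective on the elements of order 3. -/
theorem s120_inj_elt (a b : M) (ha : orderOf a = 3) (hb : orderOf b = 3) (hab : f b = f a) :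
    b = a := by
  have h1 : f (b * a⁻¹) = 1 := by rw [map_mul, map_inv, hab, mul_inv_cancel]
  rcases hker _ h1 with h | h
  · exact mul_inv_eq_one.1 h
  · exfalso
    have hb' : b = z * a := by
      rw [← h]
      group
    have hcomm : Commute z a := (hzc a).symm
    have h3 : b ^ 3 = z := by
      rw [hb', hcomm.mul_pow, ← ha, pow_orderOf_eq_one, mul_one, ha, pow_succ, ← hz,
        pow_orderOf_eq_one, one_mul]
    have h4 : b ^ 3 = 1 := by
      rw [← hb]
      exact pow_orderOf_eq_one b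
    rw [h4] at h3
    rw [← h3, orderOf_one] at hz
    omega

include hz hker in
theorem s120_tau_card (a : M) (ha : orderOf a = 3) :
    (s120tau f (Subgroup.zpowers a)).card = 3 := by
  rw [s120_tau_zpowers]
  obtain ⟨h1, h2⟩ := s120_img3 f z hz hker a ha
  exact s120_f1 _ h1 h2

include hz hker hzc in
/-- `τ` is injective on points. -/
theorem s120_tau_inj (P Q : Subgroup M) (hP : Nat.card P = 3) (hQ : Nat.card Q = 3)
    (h : s120tau f P = s120tau f Q) : P = Q := by
  obtain ⟨a, ha, rfl⟩ := s120_gen P hP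
  obtain ⟨b, hb, rfl⟩ := s120_gen Q hQ
  rw [s120_tau_zpowers, s120_tau_zpowers] at h
  obtain ⟨h1, h2⟩ := s120_img3 f z hz hker a ha
  obtain ⟨h3, h4⟩ := s120_img3 f z hz hker b hb
  rcases s120_f2 _ _ h1 h2 h3 h4 h with h5 | h5
  · have h6 : f b = f a := Subtype.ext h5
    rw [s120_inj_elt f z hz hker hzc a b ha hb h6]
  · have h6 : f b = f a⁻¹ := by
      apply Subtype.ext
      rw [h5, map_inv, Subgroup.coe_inv]
    rw [s120_inj_elt f z hz hker hzc a⁻¹ b (by rw [orderOf_inv]; exact ha) hb h6,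
      Subgroup.zpowers_inv]

include hz hker in
/-- `τ` is onto the 3-subsets. -/
theorem s120_tau_surj (hf : Function.Surjective f) (T : Finset (Fin 5)) (hT : T.card = 3) :
    ∃ P : Subgroup M, Nat.card P = 3 ∧ s120tau f P = T := by
  obtain ⟨c, hc3, hc1, hcT⟩ := s120_f5 T hT
  obtain ⟨x, hx⟩ := hf c
  have hx3 : f (x ^ 3) = 1 := by rw [map_pow, hx, hc3]
  have hx6 : x ^ 6 = 1 := by
    have h1 : x ^ 6 = x ^ 3 * x ^ 3 := by rw [← pow_add]
    rw [h1]
    rcases hker _ hx3 with h | h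
    · rw [h, one_mul]
    · rw [h, ← pow_two, ← hz, pow_orderOf_eq_one]
  have hfa : f (x ^ 4) = c := by
    rw [map_pow, hx, pow_succ, hc3, one_mul]
  have ha3 : (x ^ 4) ^ 3 = 1 := by
    have h1 : (x ^ 4) ^ 3 = x ^ 6 * x ^ 6 := by rw [← pow_mul, ← pow_add]
    rw [h1, hx6, one_mul]
  have ha1 : x ^ 4 ≠ 1 := by
    intro h
    rw [h, map_one] at hfa
    exact hc1 hfa.symm
  have hord : orderOf (x ^ 4) = 3 := orderOf_eq_prime ha3 ha1
  refine ⟨Subgroup.zpowers (x ^ 4), by rw [Nat.card_zpowers, hord], ?_⟩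
  rw [s120_tau_zpowers, hfa, hcT]

/-- `τ P` only depends on `f(P)`. -/
theorem s120_tau_of_map (P Q : Subgroup M) (h : P.map f = Q.map f) :
    s120tau f P = s120tau f Q := by
  have key : ∀ P Q : Subgroup M, P.map f = Q.map f → s120tau f P ⊆ s120tau f Q := by
    classical
    intro P Q h j hj
    unfold s120tau at hj ⊢
    rw [Finset.mem_filter] at hj ⊢
    obtain ⟨-, x, hx, hxj⟩ := hj
    have h1 : f x ∈ Q.map f := h ▸ Subgroup.mem_map_of_mem f hx
    obtain ⟨y, hy, hfy⟩ := Subgroup.mem_map.1 h1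
    exact ⟨Finset.mem_univ _, y, hy, by rw [hfy]; exact hxj⟩
  exact Finset.Subset.antisymm (key P Q h) (key Q P h.symm)

/-- the stabilizer of `j` in `A₅`. -/
def s120stab (j : Fin 5) : Subgroup (alternatingGroup (Fin 5)) :=
  MulAction.stabilizer (alternatingGroup (Fin 5)) j

theorem s120_mem_stab (j : Fin 5) (σ : alternatingGroup (Fin 5)) :
    σ ∈ s120stab j ↔ (σ : Perm (Fin 5)) j = j := by
  unfold s120stab
  rw [MulAction.mem_stabilizer_iff]
  rfl

theorem s120_card_stab (j : Fin 5) : Nat.card (s120stab j) = 12 := by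
  have h1 : ((s120stab j : Subgroup (alternatingGroup (Fin 5))) :
      Set (alternatingGroup (Fin 5)))
      = ↑(Finset.univ.filter (fun σ : alternatingGroup (Fin 5) => (σ : Perm (Fin 5)) j = j)) := by
    ext σ
    rw [SetLike.mem_coe, s120_mem_stab, Finset.coe_filter]
    simp
  have h2 : Nat.card (s120stab j) = Set.ncard ((s120stab j : Subgroup (alternatingGroup (Fin 5))) :
      Set (alternatingGroup (Fin 5))) := (_root_.Nat.card_coe_set_eq _).symm
  rw [h2, h1, Set.ncard_coe_finset]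
  exact s120_f3 j

theorem s120_cardA5 : Nat.card (alternatingGroup (Fin 5)) = 60 := by
  rw [nat_card_alternatingGroup, Nat.card_fin]
  rfl

theorem s120_cardM (hf : Function.Surjective f) (hk : Nat.card f.ker = 2) :
    Nat.card M = 120 := by
  have h1 := Subgroup.card_mul_index f.ker
  rw [Subgroup.index_ker, MonoidHom.range_eq_top.2 hf, Subgroup.card_top, s120_cardA5, hk] at h1
  omega

include hz hker hzc in
/-- the join of two points whose images fix `j` and differ: it is the stabilizer of `j`,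
of order 24. -/
theorem s120_adj (hf : Function.Surjective f)
    (hinv : ∀ s t : M, orderOf s = 2 → orderOf t = 2 → s = t) (hM : Nat.card M = 120)
    (a b : M) (ha : orderOf a = 3) (hb : orderOf b = 3) (j : Fin 5)
    (hne : Subgroup.zpowers (f a) ≠ Subgroup.zpowers (f b))
    (haj : ((f a : alternatingGroup (Fin 5)) : Perm (Fin 5)) j = j)
    (hbj : ((f b : alternatingGroup (Fin 5)) : Perm (Fin 5)) j = j) :
    (∀ x, x ∈ Subgroup.zpowers a ⊔ Subgroup.zpowers b ↔
        ((f x : alternatingGroup (Fin 5)) : Perm (Fin 5)) j = j) ∧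
      Nat.card ↥(Subgroup.zpowers a ⊔ Subgroup.zpowers b) = 24 := by
  obtain ⟨H, hH⟩ : ∃ H : Subgroup M, H = Subgroup.zpowers a ⊔ Subgroup.zpowers b := ⟨_, rfl⟩
  rw [← hH]
  have haH : a ∈ H := by
    rw [hH]
    exact Subgroup.mem_sup_left (Subgroup.mem_zpowers a)
  have hbH : b ∈ H := by
    rw [hH]
    exact Subgroup.mem_sup_right (Subgroup.mem_zpowers b)
  have hle : H ≤ (s120stab j).comap f := by
    rw [hH, sup_le_iff, Subgroup.zpowers_le, Subgroup.zpowers_le, Subgroup.mem_comap,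
      Subgroup.mem_comap, s120_mem_stab, s120_mem_stab]
    exact ⟨haj, hbj⟩
  have hAle : H.map f ≤ s120stab j := by
    rw [Subgroup.map_le_iff_le_comap]
    exact hle
  have hA9 : 9 ≤ Nat.card (H.map f) := by
    obtain ⟨h1, h2⟩ := s120_img3 f z hz hker a ha
    obtain ⟨h3, h4⟩ := s120_img3 f z hz hker b hb
    have hoa : orderOf (f a) = 3 :=
      orderOf_eq_prime (Subtype.ext (by rw [Subgroup.coe_pow]; exact h1))
        (fun h => h2 (by rw [h]; rfl))
    have hob : orderOf (f b) = 3 :=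
      orderOf_eq_prime (Subtype.ext (by rw [Subgroup.coe_pow]; exact h3))
        (fun h => h4 (by rw [h]; rfl))
    exact s120_nine (Subgroup.zpowers (f a)) (Subgroup.zpowers (f b)) (H.map f)
      (by rw [Nat.card_zpowers, hoa]) (by rw [Nat.card_zpowers, hob]) hne
      (by rw [Subgroup.zpowers_le]; exact Subgroup.mem_map_of_mem f haH)
      (by rw [Subgroup.zpowers_le]; exact Subgroup.mem_map_of_mem f hbH)
  have hA12 : Nat.card (H.map f) = 12 := by
    have h1 : Nat.card (H.map f) ∣ 12 := by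
      rw [← s120_card_stab j]
      exact Subgroup.card_dvd_of_le hAle
    obtain ⟨k, hk⟩ := h1
    rcases k with _ | _ | k
    · omega
    · omega
    · exfalso
      have h2 := Nat.mul_le_mul hA9 (show 2 ≤ k + 1 + 1 by omega)
      omega
  have hAeq : H.map f = s120stab j :=
    Subgroup.eq_of_le_of_card_ge hAle (by rw [hA12, s120_card_stab])
  have hzH : z ∈ H := by
    have h1 : Nat.card (H.map f) ∣ Nat.card H :=
      Subgroup.card_dvd_of_surjective (f.subgroupMap H) (f.subgroupMap_surjective H)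
    rw [hA12] at h1
    have h2 : 2 ∣ Nat.card H := Dvd.dvd.trans (by norm_num) h1
    have : Fact (Nat.Prime 2) := ⟨Nat.prime_two⟩
    obtain ⟨x, hx⟩ := exists_prime_orderOf_dvd_card' (G := H) 2 h2
    have h3 : orderOf (x : M) = 2 := by rw [Subgroup.orderOf_coe, hx]
    rw [← hinv _ _ h3 hz]
    exact x.2
  have hHeq : H = (s120stab j).comap f := by
    apply le_antisymm hle
    intro x hx
    rw [Subgroup.mem_comap, ← hAeq] at hx
    obtain ⟨h, hhH, hfh⟩ := Subgroup.mem_map.1 hx
    have h1 : f (x * h⁻¹) = 1 := by rw [map_mul, map_inv, hfh, mul_inv_cancel]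
    rcases hker _ h1 with h2 | h2
    · rw [mul_inv_eq_one.1 h2]
      exact hhH
    · have h3 : x = z * h := by
        rw [← h2]
        group
      rw [h3]
      exact H.mul_mem hzH hhH
  refine ⟨fun x => ?_, ?_⟩
  · rw [hHeq, Subgroup.mem_comap, s120_mem_stab]
  · have hidx : H.index = (s120stab j).index := by
      rw [hHeq]
      exact Subgroup.index_comap_of_surjective _ hf
    have hc1 := Subgroup.card_mul_index (s120stab j)
    rw [s120_card_stab, s120_cardA5] at hc1
    have hc2 := Subgroup.card_mul_index H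
    rw [hidx, hM] at hc2
    have h5 : (s120stab j).index = 5 := by omega
    rw [h5] at hc2
    omega

include hz hker hzc in
/-- adjacency in terms of 3-subsets, with the description of the join. -/
theorem s120_adj' (hf : Function.Surjective f)
    (hinv : ∀ s t : M, orderOf s = 2 → orderOf t = 2 → s = t) (hM : Nat.card M = 120)
    (P Q : Subgroup M) (hP : Nat.card P = 3) (hQ : Nat.card Q = 3)
    (h2 : (s120tau f P ∩ s120tau f Q).card = 2) :
    ∃ j, j ∉ s120tau f P ∧ j ∉ s120tau f Q ∧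
      (∀ x, x ∈ P ⊔ Q ↔ ((f x : alternatingGroup (Fin 5)) : Perm (Fin 5)) j = j) ∧
      Nat.card ↥(P ⊔ Q) = 24 := by
  obtain ⟨a, ha, rfl⟩ := s120_gen P hP
  obtain ⟨b, hb, rfl⟩ := s120_gen Q hQ
  have hTa := s120_tau_card f z hz hker a ha
  have hTb := s120_tau_card f z hz hker b hb
  obtain ⟨j, hj1, hj2⟩ := s120_cf _ ((s120_mem_T5 _).2 hTa) _ ((s120_mem_T5 _).2 hTb) h2
  refine ⟨j, hj1, hj2, ?_⟩
  rw [s120_tau_zpowers, Perm.notMem_support] at hj1 hj2
  refine s120_adj f z hz hker hzc hf hinv hM a b ha hb j ?_ hj1 hj2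
  intro h
  have h' : (Subgroup.zpowers a).map f = (Subgroup.zpowers b).map f := by
    rw [MonoidHom.map_zpowers, MonoidHom.map_zpowers]
    exact h
  have h3 := s120_tau_of_map f _ _ h'
  rw [h3, Finset.inter_self, hTb] at h2
  omega

include hz hker hzc in
/-- [K1] `|P ⊔ Q| = 24` iff the 3-subsets meet in 2 points. -/
theorem s120_K1 (hf : Function.Surjective f)
    (hinv : ∀ s t : M, orderOf s = 2 → orderOf t = 2 → s = t) (hM : Nat.card M = 120)
    (P Q : Subgroup M) (hP : Nat.card P = 3) (hQ : Nat.card Q = 3) :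
    Nat.card ↥(P ⊔ Q) = 24 ↔ (s120tau f P ∩ s120tau f Q).card = 2 := by
  constructor
  · intro h24
    obtain ⟨a, ha, rfl⟩ := s120_gen P hP
    obtain ⟨b, hb, rfl⟩ := s120_gen Q hQ
    have hTa := s120_tau_card f z hz hker a ha
    have hTb := s120_tau_card f z hz hker b hb
    obtain ⟨h1, h2⟩ := s120_img3 f z hz hker a ha
    obtain ⟨h3, h4⟩ := s120_img3 f z hz hker b hb
    rcases s120_ce _ ((s120_mem_T5 _).2 hTa) _ ((s120_mem_T5 _).2 hTb) with h | h | h
    · exfalso
      rw [s120_tau_zpowers, s120_tau_zpowers] at h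
      obtain ⟨h5, h6⟩ := s120_f4 _ _ h1 h2 h3 h4 h
      have hx : a * b ∈ Subgroup.zpowers a ⊔ Subgroup.zpowers b :=
        Subgroup.mul_mem _ (Subgroup.mem_sup_left (Subgroup.mem_zpowers a))
          (Subgroup.mem_sup_right (Subgroup.mem_zpowers b))
      have : Fact (Nat.Prime 5) := ⟨by norm_num⟩
      have ho : orderOf (f (a * b)) = 5 := by
        apply orderOf_eq_prime
        · apply Subtype.ext
          rw [Subgroup.coe_pow, map_mul, Subgroup.coe_mul]
          exact h5
        · intro h7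
          apply h6
          rw [← Subgroup.coe_mul, ← map_mul, h7]
          rfl
      have hd1 : 5 ∣ orderOf (a * b) := ho ▸ orderOf_map_dvd f (a * b)
      have hd2 : orderOf (a * b) ∣ 24 := h24 ▸ Subgroup.orderOf_dvd_natCard _ hx
      have hd3 := hd1.trans hd2
      omega
    · exact h
    · exfalso
      have h5 := s120_tau_inj f z hz hker hzc _ _ (by rw [Nat.card_zpowers, ha])
        (by rw [Nat.card_zpowers, hb]) h
      rw [h5, sup_idem, Nat.card_zpowers, hb] at h24
      omega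
  · intro h2
    obtain ⟨j, -, -, -, h⟩ := s120_adj' f z hz hker hzc hf hinv hM P Q hP hQ h2
    exact h

include hz hker hzc in
/-- [K2] if `P ⊔ Q = ⊤` the 3-subsets meet in 1 point. -/
theorem s120_K2 (hf : Function.Surjective f)
    (hinv : ∀ s t : M, orderOf s = 2 → orderOf t = 2 → s = t) (hM : Nat.card M = 120)
    (P Q : Subgroup M) (hP : Nat.card P = 3) (hQ : Nat.card Q = 3) (htop : P ⊔ Q = ⊤) :
    (s120tau f P ∩ s120tau f Q).card = 1 := by
  obtain ⟨a, ha, hPa⟩ := s120_gen P hP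
  obtain ⟨b, hb, hQb⟩ := s120_gen Q hQ
  have hTa : (s120tau f P).card = 3 := by
    rw [hPa]
    exact s120_tau_card f z hz hker a ha
  have hTb : (s120tau f Q).card = 3 := by
    rw [hQb]
    exact s120_tau_card f z hz hker b hb
  have hcard : Nat.card ↥(P ⊔ Q) = 120 := by
    rw [htop, Subgroup.card_top, hM]
  rcases s120_ce _ ((s120_mem_T5 _).2 hTa) _ ((s120_mem_T5 _).2 hTb) with h | h | h
  · exact h
  · exfalso
    have h24 := (s120_K1 f z hz hker hzc hf hinv hM P Q hP hQ).2 h
    omega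
  · exfalso
    have h5 := s120_tau_inj f z hz hker hzc _ _ hP hQ h
    rw [h5, sup_idem, hQ] at hcard
    omega

include hz hker hzc in
/-- [K3] containment in the join of two adjacent points. -/
theorem s120_K3 (hf : Function.Surjective f)
    (hinv : ∀ s t : M, orderOf s = 2 → orderOf t = 2 → s = t) (hM : Nat.card M = 120)
    (P Q R : Subgroup M) (hP : Nat.card P = 3) (hQ : Nat.card Q = 3) (hR : Nat.card R = 3)
    (h2 : (s120tau f P ∩ s120tau f Q).card = 2) :
    R ≤ P ⊔ Q ↔ s120tau f R ⊆ s120tau f P ∪ s120tau f Q := by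
  obtain ⟨j, hj1, hj2, hmem, -⟩ := s120_adj' f z hz hker hzc hf hinv hM P Q hP hQ h2
  obtain ⟨a, ha, hPa⟩ := s120_gen P hP
  obtain ⟨b, hb, hQb⟩ := s120_gen Q hQ
  obtain ⟨r, hr, hRr⟩ := s120_gen R hR
  have hTa : (s120tau f P).card = 3 := by
    rw [hPa]
    exact s120_tau_card f z hz hker a ha
  have hTb : (s120tau f Q).card = 3 := by
    rw [hQb]
    exact s120_tau_card f z hz hker b hb
  have hTr : (s120tau f R).card = 3 := by
    rw [hRr]
    exact s120_tau_card f z hz hker r hr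
  rw [s120_cg _ ((s120_mem_T5 _).2 hTa) _ ((s120_mem_T5 _).2 hTb) _ ((s120_mem_T5 _).2 hTr) h2
    j hj1 hj2, hRr, Subgroup.zpowers_le, hmem, s120_tau_zpowers, Perm.notMem_support]

end plane

/-- [STR120-M] -/
theorem pkgStr120M : PkgStr120M.{u} := by
  intro M _ _ hinv f hf hk
  obtain ⟨z, hz, hfz, hker, hzc⟩ := s120_ker f hk hinv
  have hM : Nat.card M = 120 := s120_cardM f hf hk
  have hTmem : ∀ P : Subgroup M, Nat.card P = 3 → s120tau f P ∈ s120T5 := by
    intro P hP
    obtain ⟨a, ha, rfl⟩ := s120_gen P hP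
    rw [s120_mem_T5]
    exact s120_tau_card f z hz hker a ha
  have hK1 := s120_K1 f z hz hker hzc hf hinv hM
  -- the counting principle
  have hcount : ∀ (S : Set (Subgroup M)) (p : Finset (Fin 5) → Prop) [DecidablePred p],
      (∀ R, R ∈ S ↔ Nat.card R = 3 ∧ p (s120tau f R)) → S.ncard = (s120T5.filter p).card := by
    intro S p _ hS
    have himg : s120tau f '' S = ↑(s120T5.filter p) := by
      ext T
      rw [Set.mem_image, Finset.mem_coe, Finset.mem_filter]
      constructor
      · rintro ⟨R, hR, rfl⟩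
        obtain ⟨h1, h2⟩ := (hS R).1 hR
        exact ⟨hTmem R h1, h2⟩
      · rintro ⟨hT, hpT⟩
        obtain ⟨R, hR, rfl⟩ := s120_tau_surj f z hz hker hf T ((s120_mem_T5 T).1 hT)
        exact ⟨R, (hS R).2 ⟨hR, hpT⟩, rfl⟩
    have hinjOn : Set.InjOn (s120tau f) S := by
      intro R hR R' hR' h
      exact s120_tau_inj f z hz hker hzc R R' ((hS R).1 hR).1 ((hS R').1 hR').1 h
    rw [← hinjOn.ncard_image, himg, Set.ncard_coe_finset]
  refine ⟨?_, ?_, ?_⟩
  · intro P hP
    rw [hcount _ (fun T' => (s120tau f P ∩ T').card = 2) ?_]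
    · exact s120_cb _ (hTmem P hP)
    · intro Q
      rw [Set.mem_ofPred_eq]
      constructor
      · rintro ⟨hQ, h24⟩
        exact ⟨hQ, (hK1 P Q hP hQ).1 h24⟩
      · rintro ⟨hQ, h2⟩
        exact ⟨hQ, (hK1 P Q hP hQ).2 h2⟩
  · intro P Q hP hQ htop
    have h1 := s120_K2 f z hz hker hzc hf hinv hM P Q hP hQ htop
    rw [hcount _ (fun T'' => (s120tau f P ∩ T'').card = 2 ∧ (s120tau f Q ∩ T'').card = 2) ?_]
    · exact s120_cc _ (hTmem P hP) _ (hTmem Q hQ) h1
    · intro R
      rw [Set.mem_ofPred_eq]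
      constructor
      · rintro ⟨hR, h3, h4⟩
        exact ⟨hR, (hK1 P R hP hR).1 h3, (hK1 Q R hQ hR).1 h4⟩
      · rintro ⟨hR, h3, h4⟩
        exact ⟨hR, (hK1 P R hP hR).2 h3, (hK1 Q R hQ hR).2 h4⟩
  · intro P Q hP hQ h24
    have h2 := (hK1 P Q hP hQ).1 h24
    rw [hcount _ (fun T'' => ¬ T'' ⊆ s120tau f P ∪ s120tau f Q ∧
      (s120tau f P ∩ T'').card = 2 ∧ (s120tau f Q ∩ T'').card = 2) ?_]
    · exact s120_cd _ (hTmem P hP) _ (hTmem Q hQ) h2
    · intro R
      rw [Set.mem_ofPred_eq]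
      constructor
      · rintro ⟨hR, hnle, h3, h4⟩
        exact ⟨hR, fun h => hnle
          ((s120_K3 f z hz hker hzc hf hinv hM P Q R hP hQ hR h2).2 h),
          (hK1 P R hP hR).1 h3, (hK1 Q R hQ hR).1 h4⟩
      · rintro ⟨hR, hnle, h3, h4⟩
        exact ⟨hR, fun h => hnle
          ((s120_K3 f z hz hker hzc hf hinv hM P Q R hP hQ hR h2).1 h),
          (hK1 P R hP hR).2 h3, (hK1 Q R hQ hR).2 h4⟩

end Cfsg.Agent.Lib.Helper79.Zass
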